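import Cfsg.Agent.Lib.Helper58.G2Syl.Defs

set_option autoImplicit false

/-! G2Syl farm (helper58, S4632): piece C6 (self-contained: own copies of C1 and X2). -/

namespace Cfsg.Agent.Lib.Helper73.G2Syl

open Cfsg Cfsg.Lie Cfsg.Agent.Lib.Helper58.WrSyl Cfsg.Agent.Lib.Helper58.G2Syl
open scoped MatrixGroups
open scoped commutatorElement
open Matrix.GeneralLinearGroup (scalar det)

theorem C6_powComm_of_sq_mem {G : Type*} [Group G] (H : Subgroup G)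
    (h : ∀ x ∈ H, x ^ 2 ∈ ⁅H, H⁆) : PowComm 2 H := by
  intro x
  have h1 := h x x.2
  rw [← Subgroup.map_subtype_commutator] at h1
  obtain ⟨y, hy, hyx⟩ := Subgroup.mem_map.mp h1
  have : y = x ^ 2 := Subtype.ext hyx
  rw [← this]
  exact hy

theorem C6_comm_fib {G₀ A : Type*} [Group G₀] [CommGroup A] (δ : G₀ →* A) (S : Subgroup G₀)
    (D : G₀) (hD : D ∈ S) (hgen : ∀ s ∈ S, ∃ k : ℤ, δ s = δ D ^ k) (c : G₀) (hc : c ∈ ⁅S, S⁆) :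
    ((c, 1) : G₀ × G₀) ∈ ⁅fibSub δ S, fibSub δ S⁆ ∧
      ((1, c) : G₀ × G₀) ∈ ⁅fibSub δ S, fibSub δ S⁆ := by
  have hcomm : ∀ k₁ k₂ : ℤ, D ^ k₁ * D ^ k₂ * (D ^ k₁)⁻¹ * (D ^ k₂)⁻¹ = 1 := by
    intro k₁ k₂
    rw [(Commute.zpow_zpow_self D k₁ k₂).eq]
    group
  have h1 : ⁅S, S⁆ ≤ (⁅fibSub δ S, fibSub δ S⁆).comap (MonoidHom.inl G₀ G₀) := by
    rw [Subgroup.commutator_le]
    intro s₁ hs₁ s₂ hs₂
    obtain ⟨k₁, hk₁⟩ := hgen s₁ hs₁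
    obtain ⟨k₂, hk₂⟩ := hgen s₂ hs₂
    have m₁ : ((s₁, D ^ k₁) : G₀ × G₀) ∈ fibSub δ S :=
      ⟨hs₁, S.zpow_mem hD k₁, by simp [hk₁]⟩
    have m₂ : ((s₂, D ^ k₂) : G₀ × G₀) ∈ fibSub δ S :=
      ⟨hs₂, S.zpow_mem hD k₂, by simp [hk₂]⟩
    have h3 := Subgroup.commutator_mem_commutator m₁ m₂
    rw [Subgroup.mem_comap]
    have e : MonoidHom.inl G₀ G₀ ⁅s₁, s₂⁆ = ⁅((s₁, D ^ k₁) : G₀ × G₀), (s₂, D ^ k₂)⁆ := by
      rw [commutatorElement_def, commutatorElement_def]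
      apply Prod.ext
      · simp
      · simp only [MonoidHom.inl_apply, Prod.snd_mul, Prod.snd_inv]
        exact (hcomm k₁ k₂).symm
    rw [e]
    exact h3
  have h2 : ⁅S, S⁆ ≤ (⁅fibSub δ S, fibSub δ S⁆).comap (MonoidHom.inr G₀ G₀) := by
    rw [Subgroup.commutator_le]
    intro s₁ hs₁ s₂ hs₂
    obtain ⟨k₁, hk₁⟩ := hgen s₁ hs₁
    obtain ⟨k₂, hk₂⟩ := hgen s₂ hs₂
    have m₁ : ((D ^ k₁, s₁) : G₀ × G₀) ∈ fibSub δ S :=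
      ⟨S.zpow_mem hD k₁, hs₁, by simp [hk₁]⟩
    have m₂ : ((D ^ k₂, s₂) : G₀ × G₀) ∈ fibSub δ S :=
      ⟨S.zpow_mem hD k₂, hs₂, by simp [hk₂]⟩
    have h3 := Subgroup.commutator_mem_commutator m₁ m₂
    rw [Subgroup.mem_comap]
    have e : MonoidHom.inr G₀ G₀ ⁅s₁, s₂⁆ = ⁅((D ^ k₁, s₁) : G₀ × G₀), (D ^ k₂, s₂)⁆ := by
      rw [commutatorElement_def, commutatorElement_def]
      apply Prod.ext
      · simp only [MonoidHom.inr_apply, Prod.fst_mul, Prod.fst_inv]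
        exact (hcomm k₁ k₂).symm
      · simp
    rw [e]
    exact h3
  exact ⟨h1 hc, h2 hc⟩

theorem C6_abs {G₀ A L : Type*} [Group G₀] [CommGroup A] [Group L] (δ : G₀ →* A) (sc : A → G₀)
    (Φ : G₀ × G₀ →* L) (hsc : ∀ l : A, Φ (sc l, sc l) = 1)
    (S : Subgroup G₀) (D : G₀) (hD : D ∈ S)
    (hgen : ∀ s ∈ S, ∃ k : ℤ, δ s = δ D ^ k)
    (hP2 : ∀ a ∈ S, ∃ c ∈ ⁅S, S⁆, a ^ 2 = sc (δ a) * c) :
    PowComm 2 ((fibSub δ S).map Φ) := by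
  apply C6_powComm_of_sq_mem
  intro y hy
  obtain ⟨⟨a, b⟩, hab, rfl⟩ := Subgroup.mem_map.mp hy
  obtain ⟨ha, hb, hdet⟩ := mem_fibSub.mp hab
  obtain ⟨c₁, hc₁, ha2⟩ := hP2 a ha
  obtain ⟨c₂, hc₂, hb2⟩ := hP2 b hb
  rw [← Subgroup.map_commutator, ← map_pow]
  have hdet' : δ b = δ a := hdet.symm
  have e : ((a, b) : G₀ × G₀) ^ 2 = (sc (δ a), sc (δ a)) * ((c₁, 1) * (1, c₂)) := by
    apply Prod.ext
    · simp only [Prod.pow_fst, Prod.fst_mul, mul_one]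
      exact ha2
    · simp only [Prod.pow_snd, Prod.snd_mul, one_mul]
      rw [hb2, hdet']
  rw [e, map_mul, hsc, one_mul]
  exact Subgroup.mem_map_of_mem _
    (mul_mem (C6_comm_fib δ S D hD hgen c₁ hc₁).1 (C6_comm_fib δ S D hD hgen c₂ hc₂).2)

/-- [C6] -/
theorem powComm_map_fib {F : Type*} [Field F] {L : Type*} [Group L]
    (Φ : GL (Fin 2) F × GL (Fin 2) F →* L)
    (hsc : ∀ l : Fˣ, Φ (scalar (Fin 2) l, scalar (Fin 2) l) = 1)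
    (S : Subgroup (GL (Fin 2) F)) (D : GL (Fin 2) F) (hD : D ∈ S)
    (hgen : ∀ s ∈ S, ∃ k : ℤ, det s = det D ^ k)
    (hP2 : ∀ A ∈ S, ∃ c ∈ ⁅S, S⁆, A ^ 2 = scalar (Fin 2) (det A) * c) :
    PowComm 2 ((fibSub (det : GL (Fin 2) F →* Fˣ) S).map Φ) := by
  refine C6_abs (G₀ := GL (Fin 2) F) (A := Fˣ) (L := L) (det : GL (Fin 2) F →* Fˣ)
    (fun l => scalar (Fin 2) l) Φ ?_ S D ?_ ?_ ?_
  · exact hsc
  · exact hD
  · exact hgen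
  · exact hP2

end Cfsg.Agent.Lib.Helper73.G2Syl
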